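import Cfsg.Agent.H884.ElRows

/-!
# Orthogonal groups of dimension `2m`, `m ≥ 5` odd, `q` odd: geometric part of DO-GEO (S4785, helper785)

A group of isometries whose order is divisible by all primitive prime divisors of `q^(2m-2) - 1`, `q^(2m-4) - 1`,
`q^(m-2) - 1` lies in the residual class or stabilises a subspace of dimension one or two.
-/

set_option autoImplicit false

namespace Cfsg.Agent.H785.DoGeo

open Module QuadraticMap Cfsg.Geo Cfsg.Agent.LieClassical.OrthCore Cfsg.Agent.H955 Cfsg.Agent.H954.TSing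
  Cfsg.Agent.H884.El
open Cfsg.Agent.H951 (fx cm Inv)
open scoped MatrixGroups Matrix

universe u

variable {ι : Type} [Fintype ι] [DecidableEq ι] {F : Type u} [Field F] [Fintype F] {Q : QuadraticForm F (ι → F)}
  {H : Subgroup (GL ι F)}

/-- the primitive primes of `q^(2m-4) - 1` and `q^(m-2) - 1` cannot all be small -/
theorem not_small {q m r s : ℕ} (hm : 5 ≤ m) (hodd : Odd m) (hr : PP q (2 * m - 4) r) (hs : PP q (m - 2) s)
    (h1 : r ≤ 2 * m + 1) (h2 : s ≤ 2 * m + 1) : False := by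
  have ho : Odd (m - 2) := by
    obtain ⟨k, hk⟩ := hodd
    exact ⟨k - 1, by omega⟩
  have hd1 := hr.dvd_sub_one (by omega)
  have hd2 := hs.two_mul_dvd (by omega) ho
  have hp1 := hr.prime.two_le
  have hp2 := hs.prime.two_le
  obtain ⟨a, ha⟩ := hd1
  obtain ⟨b, hb⟩ := hd2
  have ha1 : a = 1 := by
    have h3 : a < 2 := by
      by_contra hcon
      push Not at hcon
      have := Nat.mul_le_mul_left (2 * m - 4) hcon
      omega
    have h4 : a ≠ 0 := by rintro rfl; omega
    omega
  have hb1 : b = 1 := by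
    have h3 : b < 2 := by
      by_contra hcon
      push Not at hcon
      have := Nat.mul_le_mul_left (2 * (m - 2)) hcon
      omega
    have h4 : b ≠ 0 := by rintro rfl; omega
    omega
  rw [ha1, mul_one] at ha
  rw [hb1, mul_one] at hb
  exact hr.ne_of_ne hs (by omega) (by omega)

/-- **DO-GEO** -/
theorem row {m : ℕ} (h2F : (2 : F) ≠ 0) (hm : 5 ≤ m) (hodd : Odd m) (hn : Fintype.card ι = 2 * m) (hQ : Nondeg Q)
    (hH : H ≤ Cfsg.isometryGroup F (⇑Q)) (h1 : Hits H (2 * m - 2)) (h2 : Hits H (2 * m - 4)) (h3 : Hits H (m - 2)) :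
    InOrthogonalResidualClass H ∨
      ∃ W : Submodule F (ι → F), H ≤ subspaceStabilizer W ∧ (finrank F W = 1 ∨ finrank F W = 2) := by
  have hq := one_lt_q F
  have hq2 : Nat.card F ≠ 2 := by
    intro h
    apply h2F
    have h5 : ((Fintype.card F : ℕ) : F) = 0 := FiniteField.cast_card_eq_zero F
    rw [← Nat.card_eq_fintype_card, h] at h5
    exact_mod_cast h5
  obtain ⟨p, a, hp, ha, hpa⟩ := exists_char F
  obtain ⟨r₁, hr₁⟩ := exists_ppp (e := 2 * m - 2) hp ha (by omega) (by rw [← hpa]; omega) (fun b hb => by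
    have := Nat.mul_le_mul hb (show 8 ≤ 2 * m - 2 by omega); omega)
  have hr₁q : PP (Nat.card F) (2 * m - 2) r₁ := by rw [hpa]; exact hr₁.of_pow ha
  obtain ⟨r₂, hr₂⟩ := exists_pp (q := Nat.card F) (e := 2 * m - 4) (by omega) (by omega) (by omega)
  obtain ⟨r₃, hr₃⟩ := exists_pp (q := Nat.card F) (e := m - 2) (by omega) (by omega) (by omega)
  have ho : Odd (m - 2) := by
    obtain ⟨k, hk⟩ := hodd
    exact ⟨k - 1, by omega⟩
  have hfin : finrank F (ι → F) = 2 * m := by rw [Module.finrank_fintype_fun_eq_card, hn]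
  have hlt := hr₁q.lt (by omega)
  by_cases hirr : ActsIrreducibly (matrixSet H)
  · left
    rcases irr_main (by omega) hQ hH hirr hp ha hpa hr₁ (by omega) (h1 _ hr₁q) with
      h | ⟨s, K, hs, hsn, hK, hHK, h⟩ | ⟨s, k, hs, hk, hsk, h⟩ | h
    · exfalso
      have h6 := h _ _ (by omega) hr₂ (h2 _ hr₂)
      have h7 := h _ _ (by omega) hr₃ (h3 _ hr₃)
      exact not_small hm hodd hr₂ hr₃ (by omega) (by omega)
    · exfalso
      rw [hn] at hsn
      have hs2 := eq_two (by omega) hs hsn hlt h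
      subst hs2
      have hne : Nonempty ι := Fintype.card_pos_iff.1 (by omega)
      exact no_quadratic_field hQ hH hr₃ ho (by omega) (by omega) (h3 _ hr₃) hK hHK
    · exfalso
      rw [hn] at hsk
      exact (Nat.not_even_iff_odd.2 hodd) (even_of_pow (by omega) hs hsk)
    · exact h
  · right
    obtain ⟨g, hgH, hiso, -, hg1⟩ := exists_elt hH hr₁q (by omega) (h1 _ hr₁q)
    have hev : Even (2 * m - 2) := ⟨m - 1, by omega⟩
    obtain ⟨hcm, hcmP⟩ := hiso.even_case hQ (lin_ne_one hg1) hr₁q hev (by omega)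
    have hadd := hiso.finrank_add
    have hfx : finrank F ↥(fx (lin g)) = 2 := by omega
    have key : ∀ W : Submodule F (ι → F), W ≠ ⊥ → H ≤ subspaceStabilizer W → W ≤ fx (lin g) →
        ∃ W : Submodule F (ι → F), H ≤ subspaceStabilizer W ∧ (finrank F W = 1 ∨ finrank F W = 2) := by
      intro W hW hHW hle
      refine ⟨W, hHW, ?_⟩
      have h5 := Submodule.finrank_mono hle
      have h6 : finrank F W ≠ 0 := fun h => hW (Submodule.finrank_eq_zero.1 h)
      omega
    rcases Cfsg.Agent.H925.reducible_cases (Cfsg.Agent.H884.OddForm.isNondegenerate_of_nondeg Q hQ) hH hirr with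
      ⟨W, hW0, hWs, hHW⟩ | ⟨W, hW0, -, hd, hHW⟩ | ⟨h2', -⟩
    · exact key W hW0 hHW (hiso.ts_le hQ (lin_ne_one hg1) hr₁q hcm (inv_of_mem (hHW hgH)) hWs)
    · exact key W hW0 hHW (hiso.le_fx hr₁q (inv_of_mem (hHW hgH)) (by omega))
    · exact absurd h2' h2F

end Cfsg.Agent.H785.DoGeo
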